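import Mathlib

/-!
# No 7-prime group of automorphisms of `7²` with a homology of order 6 for every axis (helper137, for helper23)
-/

set_option autoImplicit false
set_option linter.unusedSectionVars false

namespace Cfsg.Agent.H137.LB.NoSix

instance fact_seven : Fact (Nat.Prime 7) := ⟨by norm_num⟩

section

variable {V : Type*} [CommGroup V] [Finite V] (h7 : ∀ v : V, v ^ 7 = 1)

/-- the module -/
abbrev W (V : Type*) := Additive V

/-- the module structure -/
@[reducible] def mod (h7 : ∀ v : V, v ^ 7 = 1) : Module (ZMod 7) (Additive V) :=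
  AddCommGroup.zmodModule (n := 7) (fun x => by
    have := h7 x.toMul
    exact congrArg Additive.ofMul this)

/-- the action -/
def act (a : MulAut V) : Additive V ≃+ Additive V := MulEquiv.toAdditive a

theorem act_mul (a b : MulAut V) (w : Additive V) : act (a * b) w = act a (act b w) := rfl

theorem act_inv (a : MulAut V) (w : Additive V) : act a⁻¹ (act a w) = w := by
  rw [← act_mul, inv_mul_cancel]
  rfl

end

section main

variable {V : Type*} [CommGroup V] [Finite V] [Module (ZMod 7) (Additive V)]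

theorem act_smul (a : MulAut V) (k : ZMod 7) (w : Additive V) : act a (k • w) = k • act a w :=
  ZMod.map_smul (act a) k w

/-- the relation -/
structure R (E : Subgroup (MulAut V)) (v c : Additive V) : Prop where
  ind : ∀ x y : ZMod 7, x • v + y • c = 0 → x = 0 ∧ y = 0
  ex : ∃ a ∈ E, act a v = v ∧ act a c = (3 : ZMod 7) • c

variable {E : Subgroup (MulAut V)} {v c : Additive V}

theorem R.eq (h : R E v c) {x y x' y' : ZMod 7} (e : x • v + y • c = x' • v + y' • c) : x = x' ∧ y = y' := by
  have h1 := h.ind (x - x') (y - y') (by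
    rw [sub_smul, sub_smul]
    have : x • v - x' • v + (y • c - y' • c) = (x • v + y • c) - (x' • v + y' • c) := by abel
    rw [this, e, sub_self])
  exact ⟨sub_eq_zero.1 h1.1, sub_eq_zero.1 h1.2⟩

theorem R.gen (hV : Nat.card V = 49) (h : R E v c) (w : Additive V) : ∃ x y : ZMod 7, w = x • v + y • c := by
  classical
  have := Fintype.ofFinite (Additive V)
  have h1 : Function.Bijective (fun p : ZMod 7 × ZMod 7 => p.1 • v + p.2 • c) := by
    rw [Fintype.bijective_iff_injective_and_card]
    constructor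
    · rintro ⟨x, y⟩ ⟨x', y'⟩ e
      obtain ⟨rfl, rfl⟩ := h.eq e
      rfl
    · rw [← Nat.card_eq_fintype_card, ← Nat.card_eq_fintype_card]
      have h2 : Nat.card (Additive V) = 49 := hV
      rw [h2, Nat.card_prod, Nat.card_zmod]
  obtain ⟨⟨x, y⟩, hp⟩ := h1.2 w
  exact ⟨x, y, hp.symm⟩

theorem R.smul (h : R E v c) {k l : ZMod 7} (hk : k ≠ 0) (hl : l ≠ 0) : R E (k • v) (l • c) where
  ind := by
    intro x y e
    rw [smul_smul, smul_smul] at e
    obtain ⟨h1, h2⟩ := h.ind _ _ e
    exact ⟨(mul_eq_zero.1 h1).resolve_right hk, (mul_eq_zero.1 h2).resolve_right hl⟩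
  ex := by
    obtain ⟨a, ha, h1, h2⟩ := h.ex
    refine ⟨a, ha, ?_, ?_⟩
    · rw [act_smul, h1]
    · rw [act_smul, h2, smul_comm]

theorem R.equi (h : R E v c) {g : MulAut V} (hg : g ∈ E) : R E (act g v) (act g c) where
  ind := by
    intro x y e
    apply h.ind
    apply (act g).injective
    rw [map_add, act_smul, act_smul, e, map_zero]
  ex := by
    obtain ⟨a, ha, h1, h2⟩ := h.ex
    refine ⟨g * a * g⁻¹, mul_mem (mul_mem hg ha) (inv_mem hg), ?_, ?_⟩
    · rw [act_mul, act_mul, act_inv, h1]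
    · rw [act_mul, act_mul, act_inv, h2, act_smul]

/-- uniqueness of the centre -/
theorem R.unique (hV : Nat.card V = 49) (hE : ¬ 7 ∣ Nat.card E) (h : R E v c) {c' : Additive V} (h' : R E v c') :
    ∃ y : ZMod 7, y ≠ 0 ∧ c' = y • c := by
  obtain ⟨x, y, rfl⟩ := h.gen hV c'
  have hy : y ≠ 0 := by
    rintro rfl
    rw [zero_smul, add_zero] at h'
    have h1 := (h'.ind x (-1) (by rw [neg_smul, one_smul, add_neg_cancel])).2
    exact absurd h1 (by decide)
  obtain ⟨a, ha, ha1, ha2⟩ := h.ex
  obtain ⟨b, hb, hb1, hb2⟩ := h'.ex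
  set κ : ZMod 7 := 2 * x * y⁻¹ with hκ
  have hbc : act b c = (3 : ZMod 7) • c + κ • v := by
    rw [map_add, act_smul, act_smul, hb1, smul_add, smul_smul, smul_smul] at hb2
    have h1 : y • act b c = (3 * y) • c + (2 * x) • v := by
      have : y • act b c = (3 * x) • v + (3 * y) • c - x • v := by rw [← hb2]; abel
      rw [this]
      have e : (2 * x : ZMod 7) = 3 * x - x := by ring
      rw [e, sub_smul]
      abel
    have h2 : act b c = y⁻¹ • (y • act b c) := by rw [smul_smul, inv_mul_cancel₀ hy, one_smul]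
    rw [h2, h1, smul_add, smul_smul, smul_smul, hκ]
    have e1 : y⁻¹ * (3 * y) = 3 := by field_simp
    have e2 : y⁻¹ * (2 * x) = 2 * x * y⁻¹ := by ring
    rw [e1, e2]
  have hav : act a⁻¹ v = v := by
    have := act_inv a v
    rwa [ha1] at this
  have hac : act a⁻¹ c = (5 : ZMod 7) • c := by
    have h1 := act_inv a c
    rw [ha2, act_smul] at h1
    have h2 : (5 : ZMod 7) • ((3 : ZMod 7) • act a⁻¹ c) = (5 : ZMod 7) • c := by rw [h1]
    rw [smul_smul, (by decide : (5 : ZMod 7) * 3 = 1), one_smul] at h2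
    exact h2
  have hd : ∀ n : ℕ, act ((a⁻¹ * b) ^ n) v = v ∧ act ((a⁻¹ * b) ^ n) c = c + ((n : ZMod 7) * κ) • v := by
    intro n
    induction n with
    | zero =>
      rw [pow_zero]
      refine ⟨rfl, ?_⟩
      rw [Nat.cast_zero, zero_mul, zero_smul, add_zero]
      rfl
    | succ n ih =>
      have h1 : act (a⁻¹ * b) v = v := by rw [act_mul, hb1, hav]
      have h2 : act (a⁻¹ * b) c = c + κ • v := by
        rw [act_mul, hbc, map_add, act_smul, act_smul, hav, hac, smul_smul, (by decide : (3 : ZMod 7) * 5 = 1), one_smul]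
      rw [pow_succ, act_mul _ (a⁻¹ * b) v, act_mul _ (a⁻¹ * b) c, h1, h2]
      refine ⟨ih.1, ?_⟩
      rw [map_add, act_smul, ih.1, ih.2, Nat.cast_succ, add_mul, one_mul, add_smul, add_assoc]
  have h7' : (a⁻¹ * b) ^ 7 = 1 := by
    apply MulEquiv.ext
    intro w
    obtain ⟨x, y, hw⟩ := h.gen hV (Additive.ofMul w)
    have h1 : act ((a⁻¹ * b) ^ 7) (Additive.ofMul w) = Additive.ofMul w := by
      rw [hw, map_add, act_smul, act_smul, (hd 7).1, (hd 7).2]
      have : ((7 : ℕ) : ZMod 7) = 0 := by decide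
      rw [this, zero_mul, zero_smul, add_zero]
    exact h1
  have h1 : a⁻¹ * b = 1 := by
    rw [← orderOf_eq_one_iff]
    have h2 := orderOf_dvd_of_pow_eq_one h7'
    rcases (Nat.dvd_prime (by norm_num)).1 h2 with h3 | h3
    · exact h3
    · exfalso
      apply hE
      rw [← h3]
      exact Subgroup.orderOf_dvd_natCard E (mul_mem (inv_mem ha) hb)
  have h2 := (hd 1).2
  rw [pow_one, h1, Nat.cast_one, one_mul] at h2
  have h3 : c = c + κ • v := h2
  have h4 : κ • v = 0 := by
    have := congrArg (fun z => -c + z) h3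
    simpa using this.symm
  have h5 := (h.ind κ 0 (by rw [h4, zero_smul, add_zero])).1
  have hx : x = 0 := by
    rw [hκ, mul_eq_zero, mul_eq_zero] at h5
    rcases h5 with (h5 | h5) | h5
    · exact absurd h5 (by decide)
    · exact h5
    · exact absurd h5 (inv_ne_zero hy)
  exact ⟨y, hy, by rw [hx, zero_smul, zero_add]⟩

variable (hV : Nat.card V = 49) (hE : ¬ 7 ∣ Nat.card E)
  (hex : ∀ v : Additive V, v ≠ 0 → ∃ c, R E v c)

theorem R.ne_left (h : R E v c) : v ≠ 0 := by
  rintro rfl
  exact absurd (h.ind 1 0 (by simp)).1 (by decide)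

theorem R.ne_right (h : R E v c) : c ≠ 0 := by
  rintro rfl
  exact absurd (h.ind 0 1 (by simp)).2 (by decide)

include hV hE hex

theorem R.symm (h : R E v c) : R E c v := by
  obtain ⟨d, hd⟩ := hex c h.ne_right
  obtain ⟨a, ha, ha1, ha2⟩ := h.ex
  have h1 := hd.equi ha
  rw [ha2] at h1
  have h2 : R E c (act a d) := by
    have := h1.smul (k := 5) (l := 1) (by decide) (by decide)
    rwa [smul_smul, (by decide : (5 : ZMod 7) * 3 = 1), one_smul, one_smul] at this
  obtain ⟨l, hl, e⟩ := hd.unique hV hE h2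
  obtain ⟨x, y, rfl⟩ := h.gen hV d
  rw [map_add, act_smul, act_smul, ha1, ha2, smul_add, smul_smul, smul_smul, smul_smul] at e
  obtain ⟨e1, e2⟩ := h.eq e
  have hx : x ≠ 0 := by
    rintro rfl
    rw [zero_smul, zero_add] at hd
    have := (hd.ind y (-1) (by rw [neg_smul, one_smul, add_neg_cancel])).2
    exact absurd this (by decide)
  have hl1 : l = 1 := by
    have : (l - 1) * x = 0 := by rw [sub_mul, ← e1]; ring
    rcases mul_eq_zero.1 this with h3 | h3
    · exact sub_eq_zero.1 h3
    · exact absurd h3 hx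
  have hy : y = 0 := by
    rw [hl1, one_mul] at e2
    have h3 : y * 2 = 0 := by
      have : y * 3 - y = 0 := by rw [e2, sub_self]
      linear_combination this
    rcases mul_eq_zero.1 h3 with h4 | h4
    · exact h4
    · exact absurd h4 (by decide)
  rw [hy, zero_smul, add_zero] at hd
  have := hd.smul (k := 1) (l := x⁻¹) (by decide) (inv_ne_zero hx)
  rwa [one_smul, smul_smul, inv_mul_cancel₀ hx, one_smul] at this

theorem R.diag (h : R E v c) {k : ZMod 7} (hk : k ≠ 0) : ∃ g ∈ E, act g v = v ∧ act g c = k • c := by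
  obtain ⟨a, ha, ha1, ha2⟩ := h.ex
  have h1 : ∀ n : ℕ, act (a ^ n) v = v ∧ act (a ^ n) c = ((3 : ZMod 7) ^ n) • c := by
    intro n
    induction n with
    | zero => exact ⟨rfl, by rw [pow_zero, pow_zero, one_smul]; rfl⟩
    | succ n ih =>
      rw [pow_succ, act_mul, act_mul, ha1, ha2, act_smul, ih.1, ih.2, smul_smul, pow_succ, mul_comm]
      exact ⟨rfl, rfl⟩
  obtain ⟨n, hn⟩ : ∃ n : ℕ, (3 : ZMod 7) ^ n = k := by
    have : ∀ k : ZMod 7, k ≠ 0 → ∃ n ∈ Finset.range 7, (3 : ZMod 7) ^ n = k := by decide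
    obtain ⟨n, -, hn⟩ := this k hk
    exact ⟨n, hn⟩
  exact ⟨a ^ n, pow_mem ha n, (h1 n).1, by rw [(h1 n).2, hn]⟩

/-- `C⟨v + c⟩ = ⟨v - c⟩` -/
theorem R.plus (h : R E v c) : R E (v + c) (v - c) := by
  have hvc : v + c ≠ 0 := by
    intro e
    have := (h.ind 1 1 (by rw [one_smul, one_smul, e])).1
    exact absurd this (by decide)
  obtain ⟨d, hd⟩ := hex _ hvc
  obtain ⟨x, y, rfl⟩ := h.gen hV d
  have hc := h.symm hV hE hex
  have hx : x ≠ 0 := by
    rintro rfl
    rw [zero_smul, zero_add] at hd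
    have hy : y ≠ 0 := by
      rintro rfl
      exact hd.ne_right (zero_smul _ _)
    have h1 := (hd.smul (k := 1) (l := y⁻¹) (by decide) (inv_ne_zero hy)).symm hV hE hex
    rw [one_smul, smul_smul, inv_mul_cancel₀ hy, one_smul] at h1
    obtain ⟨z, -, e⟩ := hc.unique hV hE h1
    have := (h.eq (x := 1) (y := 1) (x' := z) (y' := 0) (by rw [one_smul, one_smul, zero_smul, add_zero, e])).2
    exact absurd this (by decide)
  have hy : y ≠ 0 := by
    rintro rfl
    rw [zero_smul, add_zero] at hd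
    have h1 := (hd.smul (k := 1) (l := x⁻¹) (by decide) (inv_ne_zero hx)).symm hV hE hex
    rw [one_smul, smul_smul, inv_mul_cancel₀ hx, one_smul] at h1
    obtain ⟨z, -, e⟩ := h.unique hV hE h1
    have := (h.eq (x := 1) (y := 1) (x' := 0) (y' := z) (by rw [one_smul, one_smul, zero_smul, zero_add, e])).1
    exact absurd this (by decide)
  -- normalise `x = 1`
  set r : ZMod 7 := x⁻¹ * y with hr
  have hr0 : r ≠ 0 := mul_ne_zero (inv_ne_zero hx) hy
  have h1 : R E (v + c) (v + r • c) := by
    have := hd.smul (k := 1) (l := x⁻¹) (by decide) (inv_ne_zero hx)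
    rwa [one_smul, smul_add, smul_smul, smul_smul, inv_mul_cancel₀ hx, one_smul] at this
  obtain ⟨g, hg, hg1, hg2⟩ := h.diag hV hE hex hr0
  have h2 := h1.equi hg
  rw [map_add, map_add, act_smul, hg1, hg2, smul_smul] at h2
  obtain ⟨z, hz, e⟩ := (h1.symm hV hE hex).unique hV hE h2
  rw [smul_add] at e
  obtain ⟨e1, e2⟩ := h.eq (x := 1) (y := r * r) (x' := z) (y' := z) (by rw [one_smul, e])
  have hr2 : r * r = 1 := by rw [e2, ← e1]
  have hcases : ∀ r : ZMod 7, r * r = 1 → r = 1 ∨ r = -1 := by decide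
  rcases hcases r hr2 with h3 | h3
  · exfalso
    rw [h3, one_smul] at h1
    have := (h1.ind 1 (-1) (by rw [one_smul, neg_smul, one_smul, add_neg_cancel])).1
    exact absurd this (by decide)
  · rw [h3, neg_smul, one_smul, ← sub_eq_add_neg] at h1
    exact h1

theorem R.plus_smul (h : R E v c) {z : ZMod 7} (hz : z ≠ 0) : R E (v + z • c) (v - z • c) := by
  have := h.smul (k := 1) (l := z) (by decide) hz
  rw [one_smul] at this
  exact this.plus hV hE hex

theorem contra (h : R E v c) : False := by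
  have h1 := h.plus hV hE hex
  have h2 := h1.plus_smul hV hE hex (z := 2) (by decide)
  have h3 := h.plus_smul hV hE hex (z := 2) (by decide)
  have h4 := h3.smul (k := 3) (l := 1) (by decide) (by decide)
  have e1 : (v + c) + (2 : ZMod 7) • (v - c) = (3 : ZMod 7) • (v + (2 : ZMod 7) • c) := by
    have : (3 : ZMod 7) • (v + (2 : ZMod 7) • c) = (3 : ZMod 7) • v + (3 * 2 : ZMod 7) • c := by
      rw [smul_add, smul_smul]
    rw [this, (by decide : (3 * 2 : ZMod 7) = -1), (by decide : (3 : ZMod 7) = 1 + 2)]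
    module
  rw [e1] at h2
  rw [one_smul] at h4
  obtain ⟨l, hl, e⟩ := h4.unique hV hE h2
  have e2 : (v + c) - (2 : ZMod 7) • (v - c) = (-1 : ZMod 7) • v + (3 : ZMod 7) • c := by module
  have e3 : l • (v - (2 : ZMod 7) • c) = l • v + (-(l * 2)) • c := by module
  rw [e2, e3] at e
  obtain ⟨h5, h6⟩ := h.eq e
  rw [← h5] at h6
  exact absurd h6 (by decide)

end main

end Cfsg.Agent.H137.LB.NoSix

namespace Cfsg.Agent.H137.LB

open NoSix

/-- **[F3b]** -/
theorem no_six {V : Type*} [CommGroup V] [Finite V] (hV : Nat.card V = 49) (h7 : ∀ v : V, v ^ 7 = 1)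
    (E : Subgroup (MulAut V)) (hE : ¬ 7 ∣ Nat.card E)
    (h : ∀ v : V, v ≠ 1 → ∃ a ∈ E, a v = v ∧ ∀ w, a w * (w ^ 3)⁻¹ ∈ Subgroup.zpowers v) : False := by
  classical
  let _ : Module (ZMod 7) (Additive V) := mod h7
  have hex : ∀ v : Additive V, v ≠ 0 → ∃ c, R E v c := by
    intro v hv
    obtain ⟨a, ha, ha1, ha2⟩ := h v.toMul hv
    obtain ⟨w, hw⟩ : ∃ w : Additive V, ∀ x : ZMod 7, w ≠ x • v := by
      by_contra hcon
      push Not at hcon
      have h1 : Function.Surjective (fun x : ZMod 7 => x • v) := fun w => by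
        obtain ⟨x, hx⟩ := hcon w
        exact ⟨x, hx.symm⟩
      have h2 := Nat.card_le_card_of_surjective _ h1
      have h3 : Nat.card (Additive V) = 49 := hV
      rw [h3, Nat.card_zmod] at h2
      omega
    obtain ⟨k, hk⟩ := ha2 w.toMul
    have hk' : act a w = (3 : ZMod 7) • w + (k : ZMod 7) • v := by
      have h1 : k • v = act a w - 3 • w := by
        have h2 : Additive.ofMul (v.toMul ^ k) = Additive.ofMul (a w.toMul * (w.toMul ^ 3)⁻¹) := congrArg _ hk
        have h3 : Additive.ofMul (a w.toMul * (w.toMul ^ 3)⁻¹) = act a w - 3 • w := by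
          rw [sub_eq_add_neg]
          rfl
        rw [← h3, ← h2]
        rfl
      have h4 : (k : ZMod 7) • v = k • v := by
        exact Int.cast_smul_eq_zsmul (ZMod 7) k v
      have h5 : (3 : ZMod 7) • w = 3 • w := by
        exact_mod_cast Nat.cast_smul_eq_nsmul (ZMod 7) 3 w
      rw [h4, h5, h1]
      abel
    set κ : ZMod 7 := (k : ZMod 7)
    have hav : act a v = v := ha1
    refine ⟨w + (4 * κ) • v, ?_, a, ha, hav, ?_⟩
    · intro x y e
      have hy : y = 0 := by
        by_contra hy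
        apply hw (-(y⁻¹ * x) - 4 * κ)
        have h1 : y⁻¹ • (x • v + y • (w + (4 * κ) • v)) = 0 := by rw [e, smul_zero]
        rw [smul_add, smul_smul, smul_smul, inv_mul_cancel₀ hy, one_smul] at h1
        have h2 : w = -((y⁻¹ * x) • v) - (4 * κ) • v := by
          have : w = ((y⁻¹ * x) • v + (w + (4 * κ) • v)) - (y⁻¹ * x) • v - (4 * κ) • v := by abel
          rw [h1] at this
          rw [this]
          abel
        rw [h2]
        module
      subst hy
      rw [zero_smul, add_zero] at e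
      refine ⟨?_, rfl⟩
      by_contra hx
      apply hv
      have : x⁻¹ • (x • v) = 0 := by rw [e, smul_zero]
      rwa [smul_smul, inv_mul_cancel₀ hx, one_smul] at this
    · rw [map_add, act_smul, hav, hk', smul_add, smul_smul, add_assoc, ← add_smul]
      have : ∀ κ : ZMod 7, κ + 4 * κ = 3 * (4 * κ) := by decide
      rw [this]
  obtain ⟨v, hv⟩ : ∃ v : Additive V, v ≠ 0 := by
    by_contra hcon
    push Not at hcon
    have h1 : Subsingleton V := ⟨fun x y => (hcon (Additive.ofMul x)).trans (hcon (Additive.ofMul y)).symm⟩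
    have h2 := Nat.card_of_subsingleton (1 : V)
    omega
  obtain ⟨c, hc⟩ := hex v hv
  exact contra hV hE hex hc

end Cfsg.Agent.H137.LB
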